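import Mathlib
import Cfsg.Agent.H3.ThompsonNPC
import Cfsg.Agent.H3.PCentral
/-!
A nonabelian simple group has no action of a group by automorphisms and anti-automorphisms, containing the inner
ones, in which all stabilizers of nonidentity elements are maximal.
-/
set_option autoImplicit false
set_option maxHeartbeats 400000
namespace CfsgL.DiagLem
open Subgroup MulAction CfsgH3
open scoped Pointwise

universe u
variable {T : Type u} [Group T] [Finite T] {B : Type*} [Group B] [MulAction B T]

structure Dg (B T : Type*) [Group T] [Group B] [MulAction B T] : Prop where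
  h1 : ∀ b : B, (∀ x y : T, b • (x * y) = (b • x) * (b • y)) ∨ (∀ x y : T, b • (x * y) = (b • y) * (b • x))
  h2 : ∀ t : T, ∃ b : B, ∀ x : T, b • x = t * x * t⁻¹
  h3 : ∀ x : T, x ≠ 1 → IsCoatom (stabilizer B x)

section
variable (h : Dg B T)
include h
omit [Finite T]

theorem one' (b : B) : b • (1 : T) = 1 := by
  rcases h.h1 b with h1 | h1
  · have := h1 1 1
    rw [mul_one] at this
    exact (left_eq_mul.1 this)
  · have := h1 1 1
    rw [mul_one] at this
    exact (left_eq_mul.1 this)

theorem pow' (b : B) (x : T) (n : ℕ) : b • (x ^ n) = (b • x) ^ n := by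
  induction n with
  | zero => rw [pow_zero, pow_zero, one' h]
  | succ n ih =>
    rcases h.h1 b with h1 | h1
    · rw [pow_succ, h1, ih, pow_succ]
    · rw [pow_succ, h1, ih, pow_succ']

theorem inv' (b : B) (x : T) : b • x⁻¹ = (b • x)⁻¹ := by
  rcases h.h1 b with h1 | h1
  · apply eq_inv_of_mul_eq_one_left
    rw [← h1, inv_mul_cancel, one' h]
  · apply eq_inv_of_mul_eq_one_left
    rw [← h1, mul_inv_cancel, one' h]

theorem ord' (b : B) (x : T) : orderOf (b • x) = orderOf x := by
  rw [orderOf_eq_orderOf_iff]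
  intro n
  rw [← pow' h]
  constructor
  · intro h1
    rw [← one' h b] at h1
    exact smul_left_cancel b h1
  · intro h1
    rw [h1, one' h]

theorem comm' (b : B) {x y : T} (hxy : x * y = y * x) : (b • x) * (b • y) = (b • y) * (b • x) := by
  rcases h.h1 b with h1 | h1
  · rw [← h1, ← h1, hxy]
  · rw [← h1, ← h1, hxy]

theorem s1 {x y : T} (hxy : stabilizer B x ≤ stabilizer B y) {c : T} (hc : c * x = x * c) : c * y = y * c := by
  obtain ⟨b, hb⟩ := h.h2 c
  have h1 : b ∈ stabilizer B x := by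
    rw [mem_stabilizer_iff, hb, hc, mul_inv_cancel_right]
  have h2 := hxy h1
  rw [mem_stabilizer_iff, hb] at h2
  exact mul_inv_eq_iff_eq_mul.1 h2

theorem s_mul {x y z : T} (hy : stabilizer B x ≤ stabilizer B y) (hz : stabilizer B x ≤ stabilizer B z) :
    stabilizer B x ≤ stabilizer B (y * z) := by
  have h1 : x * y = y * x := s1 h hy rfl
  have h2 : y * z = z * y := s1 h hz h1.symm
  intro b hb
  have hby : b • y = y := hy hb
  have hbz : b • z = z := hz hb
  rw [mem_stabilizer_iff]
  rcases h.h1 b with h3 | h3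
  · rw [h3, hby, hbz]
  · rw [h3, hby, hbz, h2]

theorem s_pow {x y : T} (hy : stabilizer B x ≤ stabilizer B y) (n : ℕ) :
    stabilizer B x ≤ stabilizer B (y ^ n) := by
  intro b hb
  have hby : b • y = y := hy hb
  rw [mem_stabilizer_iff, pow' h, hby]

theorem s_inv {x y : T} (hy : stabilizer B x ≤ stabilizer B y) :
    stabilizer B x ≤ stabilizer B (y⁻¹) := by
  intro b hb
  have hby : b • y = y := hy hb
  rw [mem_stabilizer_iff, inv' h, hby]

theorem s_eq {x y : T} (hx : x ≠ 1) (hy : y ≠ 1) (hxy : stabilizer B x ≤ stabilizer B y) :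
    stabilizer B x = stabilizer B y := by
  by_contra hne
  have := (h.h3 x hx).2 _ (lt_of_le_of_ne hxy hne)
  exact (h.h3 y hy).1 this

theorem p1a {x y : T} (hx : x ≠ 1) (hy : y ≠ 1) (hxy : x * y = y * x) (ho : y ^ orderOf x ≠ 1) :
    stabilizer B x = stabilizer B y := by
  have hw : (x * y) ^ orderOf x = y ^ orderOf x := by
    rw [(show Commute x y from hxy).mul_pow, pow_orderOf_eq_one, one_mul]
  have hw1 : x * y ≠ 1 := fun h1 => ho (by rw [← hw, h1, one_pow])
  have e1 := s_eq h hw1 (hw ▸ ho : (x * y) ^ orderOf x ≠ 1) (s_pow h le_rfl _)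
  have e2 := s_eq h hy ho (s_pow h le_rfl _)
  rw [hw] at e1
  have e3 : stabilizer B y = stabilizer B (x * y) := e2.trans e1.symm
  have e4 : stabilizer B y ≤ stabilizer B (x * y * y⁻¹) := s_mul h e3.le (s_inv h le_rfl)
  rw [mul_inv_cancel_right] at e4
  exact (s_eq h hy hx e4).symm

theorem p1 {x y : T} (hx : x ≠ 1) (hy : y ≠ 1) (hxy : x * y = y * x) (ho : orderOf x ≠ orderOf y) :
    stabilizer B x = stabilizer B y := by
  by_cases h1 : y ^ orderOf x = 1
  · by_cases h2 : x ^ orderOf y = 1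
    · exact absurd (Nat.dvd_antisymm (orderOf_dvd_of_pow_eq_one h2) (orderOf_dvd_of_pow_eq_one h1)) ho
    · exact (p1a h hy hx hxy.symm h2).symm
  · exact p1a h hx hy hxy h1

end

theorem not_pgroup [hs : IsSimpleGroup T] (hc : ¬ IsMulCommutative T) (p : ℕ) [hp : Fact p.Prime] : ¬ IsPGroup p T := by
  intro h2
  apply hc
  haveI : Nontrivial T := hs.toNontrivial
  have h3 : center T = ⊤ := by
    rcases (inferInstance : (center T).Normal).eq_bot_or_eq_top with h4 | h4
    · exfalso
      haveI := h2.center_nontrivial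
      exact (Subgroup.nontrivial_iff_ne_bot _).1 this h4
    · exact h4
  refine ⟨⟨fun a b => ?_⟩⟩
  have : a ∈ center T := by rw [h3]; trivial
  exact ((Subgroup.mem_center_iff.1 this) b).symm

theorem exists_odd [hs : IsSimpleGroup T] (hc : ¬ IsMulCommutative T) : ∃ p : ℕ, p.Prime ∧ p ≠ 2 ∧ p ∣ Nat.card T := by
  by_contra hcon
  push Not at hcon
  haveI : Fact (Nat.Prime 2) := ⟨Nat.prime_two⟩
  apply not_pgroup hc 2
  apply IsPGroup.of_card (n := (Nat.card T).primeFactorsList.length)
  apply Nat.eq_prime_pow_of_unique_prime_dvd Nat.card_pos.ne'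
  intro d hd hd2
  by_contra hne
  exact hcon d hd hne hd2

theorem dg_false [hs : IsSimpleGroup T] (hc : ¬ IsMulCommutative T) (h : Dg B T) : False := by
  classical
  obtain ⟨p, hp, hp2, hpd⟩ := exists_odd hc
  haveI : Fact p.Prime := ⟨hp⟩
  obtain ⟨P⟩ : Nonempty (Sylow p T) := inferInstance
  have hPne : (P : Subgroup T) ≠ ⊥ := P.ne_bot_of_dvd_card hpd
  have hZne : ZZ (P : Subgroup T) ≠ ⊥ := ZZ_ne_bot P.2 hPne
  -- element of order p in the centre
  obtain ⟨z, hzZ, hzo⟩ : ∃ z : T, z ∈ ZZ (P : Subgroup T) ∧ orderOf z = p := by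
    have h1 : IsPGroup p (ZZ (P : Subgroup T)) := P.2.to_le (ZZ_le _)
    haveI : Nontrivial (ZZ (P : Subgroup T)) := (Subgroup.nontrivial_iff_ne_bot _).2 hZne
    obtain ⟨n, hn0, hn⟩ := h1.nontrivial_iff_card.1 inferInstance
    have h2 : p ∣ Nat.card (ZZ (P : Subgroup T)) := by
      rw [hn]; exact dvd_pow_self p (by omega)
    obtain ⟨x, hx⟩ := exists_prime_orderOf_dvd_card' p h2
    exact ⟨x, x.2, by rw [Subgroup.orderOf_coe, hx]⟩
  have hz1 : z ≠ 1 := by
    intro h1
    rw [h1, orderOf_one] at hzo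
    exact hp.ne_one hzo.symm
  let H : Subgroup T := centralizer ({z} : Set T)
  have hHm : ∀ {c : T}, c ∈ H ↔ z * c = c * z := by
    intro c
    exact Subgroup.mem_centralizer_singleton_iff.trans eq_comm
  have hcent : ∀ y ∈ H, y ≠ 1 → orderOf y ≠ p → ∀ c ∈ H, c * y = y * c := by
    intro y hy hy1 hyo c hcH
    have h1 := p1 h hz1 hy1 (hHm.1 hy) (by rw [hzo]; exact hyo.symm)
    exact s1 h h1.le (hHm.1 hcH).symm
  let K : Subgroup H :=
    { carrier := {y | (orderOf (y : T)).Coprime p}
      one_mem' := by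
        change (orderOf ((1 : H) : T)).Coprime p
        rw [OneMemClass.coe_one, orderOf_one]; exact Nat.coprime_one_left p
      mul_mem' := by
        intro x y hx hy
        change (orderOf ((x * y : H) : T)).Coprime p
        by_cases hx1 : (x : T) = 1
        · rw [Subgroup.coe_mul, hx1, one_mul]; exact hy
        · have hxo : orderOf (x : T) ≠ p := by
            intro h1
            have hx' : (orderOf (x : T)).Coprime p := hx
            rw [h1] at hx'
            exact hp.ne_one ((Nat.coprime_self p).1 hx')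
          have hcomm := hcent x x.2 hx1 hxo y y.2
          refine Nat.Coprime.coprime_dvd_left ?_ (Nat.Coprime.mul_left hx hy)
          exact (show Commute (x : T) (y : T) from hcomm.symm).orderOf_mul_dvd_mul_orderOf
      inv_mem' := by
        intro x hx
        change (orderOf ((x⁻¹ : H) : T)).Coprime p
        rw [Subgroup.coe_inv, orderOf_inv]; exact hx }
  have hKm : ∀ {y : H}, y ∈ K ↔ (orderOf (y : T)).Coprime p := Iff.rfl
  have hKc : ∀ y ∈ K, ∀ c : H, (c : T) * y = y * c := by
    intro y hy c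
    by_cases hy1 : (y : T) = 1
    · rw [hy1, mul_one, one_mul]
    · apply hcent y y.2 hy1 _ c c.2
      intro h1
      have hy' : (orderOf (y : T)).Coprime p := hy
      rw [h1] at hy'
      exact hp.ne_one ((Nat.coprime_self p).1 hy')
  haveI hKn : K.Normal := by
    constructor
    intro y hy c
    have : c * y * c⁻¹ = y := by
      apply Subtype.ext
      change (c : T) * y * (c : T)⁻¹ = y
      rw [hKc y hy c, mul_inv_cancel_right]
    rw [this]; exact hy
  have hKcop : (Nat.card K).Coprime p := by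
    rw [Nat.coprime_comm, Nat.Prime.coprime_iff_not_dvd hp]
    intro hd
    obtain ⟨x, hx⟩ := exists_prime_orderOf_dvd_card' p hd
    have h1 : (orderOf ((x : H) : T)).Coprime p := x.2
    rw [Subgroup.orderOf_coe, Subgroup.orderOf_coe, hx] at h1
    exact hp.ne_one ((Nat.coprime_self p).1 h1)
  have hKidx : ∃ k : ℕ, K.index = p ^ k := by
    have h1 : IsPGroup p (H ⧸ K) := by
      intro x
      obtain ⟨c, rfl⟩ := QuotientGroup.mk'_surjective K x
      obtain ⟨a, m, hm, ho⟩ := Nat.exists_eq_pow_mul_and_not_dvd (orderOf_pos (c : T)).ne' p hp.ne_one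
      refine ⟨a, ?_⟩
      rw [← map_pow]
      rw [QuotientGroup.mk'_apply, QuotientGroup.eq_one_iff, hKm, Subgroup.coe_pow,
        orderOf_pow_of_dvd (pow_ne_zero _ hp.ne_zero) (by rw [ho]; exact dvd_mul_right _ _), ho,
        Nat.mul_div_cancel_left _ (pow_pos hp.pos a), Nat.coprime_comm, Nat.Prime.coprime_iff_not_dvd hp]
      exact hm
    obtain ⟨k, hk⟩ := IsPGroup.iff_card.1 h1
    exact ⟨k, hk⟩
  have hNPC : HasNPC p H := ⟨K, hKn, hKcop, hKidx⟩
  have hPH : (P : Subgroup T) ≤ H := by
    intro y hy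
    rw [hHm]
    exact ((Subgroup.mem_centralizer_iff.1 hzZ.2) y hy).symm
  -- H = K P
  have hdec : ∀ c ∈ H, ∃ k : H, k ∈ K ∧ ∃ a ∈ (P : Subgroup T), c = k * a := by
    obtain ⟨k, hk⟩ := hKidx
    have e1 := K.card_mul_index
    rw [hk] at e1
    let P' : Subgroup H := (P : Subgroup T).subgroupOf H
    have e2 := P'.card_mul_index
    have e3 : Nat.card P' = Nat.card P := Nat.card_congr (Subgroup.subgroupOfEquivOfLe hPH).toEquiv
    obtain ⟨n, hn⟩ := IsPGroup.iff_card.1 P.2
    have e4 : ¬ p ∣ P'.index := by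
      intro hd
      apply P.not_dvd_index
      have : P'.index ∣ (P : Subgroup T).index := by
        change (P : Subgroup T).relIndex H ∣ _
        exact Subgroup.relIndex_dvd_index_of_le hPH
      exact hd.trans this
    have e5 : Nat.card P' = p ^ n := e3.trans hn
    rw [e5] at e2
    have e6 : p ^ k ∣ p ^ n := by
      have h1 : p ^ k ∣ p ^ n * P'.index := by rw [e2, ← e1]; exact dvd_mul_left _ _
      exact (Nat.Coprime.pow_left k ((Nat.Prime.coprime_iff_not_dvd hp).2 e4)).dvd_of_dvd_mul_right h1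
    have e7 : p ^ n ∣ p ^ k := by
      have h1 : p ^ n ∣ Nat.card K * p ^ k := by rw [e1, ← e2]; exact dvd_mul_right _ _
      exact (Nat.Coprime.pow_left n hKcop.symm).dvd_of_dvd_mul_left h1
    have e8 : p ^ n = p ^ k := Nat.dvd_antisymm e7 e6
    have hcompl : K.IsComplement' P' := by
      apply Subgroup.isComplement'_of_coprime
      · rw [e5, e8, e1]
      · rw [e5]; exact Nat.Coprime.pow_right n hKcop
    intro c hcH
    have h1 : (⟨c, hcH⟩ : H) ∈ (K : Set H) * (P' : Set H) := by
      rw [hcompl.mul_eq]; trivial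
    obtain ⟨k', hk', a, ha, he⟩ := Set.mem_mul.1 h1
    exact ⟨k', hk', a, ha, (congrArg Subtype.val he).symm⟩
  have hnorm : H ≤ normalizer ((P : Subgroup T) : Set T) := by
    intro c hcH
    have key : ∀ c ∈ H, ∀ y ∈ (P : Subgroup T), c * y * c⁻¹ ∈ (P : Subgroup T) := by
      intro c hcH y hy
      obtain ⟨k, hk, a, ha, rfl⟩ := hdec c hcH
      have h1 : a * y * a⁻¹ ∈ (P : Subgroup T) := Subgroup.mul_mem _ (Subgroup.mul_mem _ ha hy) (Subgroup.inv_mem _ ha)
      have h2 := hKc k hk ⟨_, hPH h1⟩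
      have h3 : (k : T) * a * y * ((k : T) * a)⁻¹ = a * y * a⁻¹ := by
        have e : (k : T) * a * y * ((k : T) * a)⁻¹ = k * (a * y * a⁻¹) * (k : T)⁻¹ := by group
        rw [e, ← h2, mul_inv_cancel_right]
      rw [h3]; exact h1
    rw [Subgroup.mem_normalizer_iff]
    intro y
    refine ⟨fun hy => key c hcH y hy, fun hy => ?_⟩
    have := key c⁻¹ (H.inv_mem hcH) _ hy
    have e : c⁻¹ * (c * y * c⁻¹) * c⁻¹⁻¹ = y := by group
    rwa [e] at this
  have hbP : ∀ b ∈ stabilizer B z, ∀ y ∈ (P : Subgroup T), b • y ∈ (P : Subgroup T) := by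
    intro b hb y hy
    have hbz : b • z = z := hb
    have h1 : b • y ∈ H := by
      rw [hHm]
      have := comm' h b (hHm.1 (hPH hy))
      rwa [hbz] at this
    obtain ⟨j, hj⟩ := P.2 ⟨y, hy⟩
    have hj' : y ^ p ^ j = 1 := congrArg Subtype.val hj
    apply mem_sylow_of_normalizer P (k := j) _ (hnorm h1)
    rw [← pow' h, hj', one' h]
  let Y : Subgroup T := JJ p (P : Subgroup T)
  have hYne : Y ≠ ⊥ := JJ_ne_bot (Or.inr rfl) P.2 hPne
  have hYP : Y ≤ P := JJ_le _
  have hbY : ∀ b ∈ stabilizer B z, ∀ y ∈ Y, b • y ∈ Y := by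
    intro b hb
    have gen : ∀ φ : T →* T, Function.Injective φ → (∀ y ∈ (P : Subgroup T), φ y ∈ (P : Subgroup T)) →
        ∀ y ∈ Y, φ y ∈ Y := by
      intro φ hφ hφP y hy
      have h1 : (P : Subgroup T).map φ = P := by
        apply Subgroup.eq_of_le_of_card_ge
        · rintro _ ⟨x, hx, rfl⟩; exact hφP x hx
        · rw [Nat.card_congr ((P : Subgroup T).equivMapOfInjective φ hφ).toEquiv]
      have h2 := JJ_map (e := p) φ (P : Subgroup T) hφ.injOn
      rw [h1] at h2
      change φ y ∈ JJ p (P : Subgroup T)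
      rw [h2]
      exact ⟨y, hy, rfl⟩
    rcases h.h1 b with h1 | h1
    · intro y hy
      exact gen (MonoidHom.mk' (fun x => b • x) h1) (fun x y hxy => smul_left_cancel b hxy) (hbP b hb) y hy
    · intro y hy
      have h2 := gen (MonoidHom.mk' (fun x => (b • x)⁻¹) (fun x y => by rw [h1, mul_inv_rev]))
        (fun x y hxy => smul_left_cancel b (inv_injective hxy)) (fun y hy => Subgroup.inv_mem _ (hbP b hb y hy)) y hy
      have h3 : (b • y)⁻¹ ∈ Y := h2
      rw [← inv_inv (b • y)]
      exact Y.inv_mem h3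
  let M : Subgroup B :=
    { carrier := {b | ∀ y ∈ Y, b • y ∈ Y ∧ b⁻¹ • y ∈ Y}
      one_mem' := by
        intro y hy
        rw [inv_one, one_smul]; exact ⟨hy, hy⟩
      mul_mem' := by
        intro a b ha hb y hy
        refine ⟨?_, ?_⟩
        · rw [mul_smul]; exact (ha _ (hb y hy).1).1
        · rw [mul_inv_rev, mul_smul]; exact (hb _ (ha y hy).2).2
      inv_mem' := by
        intro a ha y hy
        rw [inv_inv]; exact ⟨(ha y hy).2, (ha y hy).1⟩ }
  have hzM : stabilizer B z ≤ M := fun b hb y hy => ⟨hbY b hb y hy, hbY b⁻¹ (Subgroup.inv_mem _ hb) y hy⟩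
  have hMtop : M ≠ ⊤ := by
    intro hM
    have hYn : Y.Normal := by
      constructor
      intro y hy t
      obtain ⟨b, hb⟩ := h.h2 t
      have hbM : b ∈ M := by rw [hM]; trivial
      rw [← hb]; exact (hbM y hy).1
    rcases hYn.eq_bot_or_eq_top with h1 | h1
    · exact hYne h1
    · apply not_pgroup hc p
      have h2 : (P : Subgroup T) = ⊤ := by
        rw [eq_top_iff, ← h1]; exact hYP
      have h3 := P.2
      rw [h2] at h3
      exact h3.of_surjective (Subgroup.topEquiv : (⊤ : Subgroup T) ≃* T).toMonoidHom Subgroup.topEquiv.surjective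
  have hMz : M = stabilizer B z := by
    by_contra hne
    exact hMtop ((h.h3 z hz1).2 M (lt_of_le_of_ne hzM (Ne.symm hne)))
  have hNY : normalizer (Y : Set T) ≤ H := by
    intro t ht
    obtain ⟨b, hb⟩ := h.h2 t
    have hbM : b ∈ M := by
      intro y hy
      refine ⟨?_, ?_⟩
      · rw [hb]; exact (Subgroup.mem_normalizer_iff.1 ht y).1 hy
      · have h1 : b • (t⁻¹ * y * t) = y := by rw [hb]; group
        have h2 : b⁻¹ • y = t⁻¹ * y * t := by rw [inv_smul_eq_iff, h1]
        rw [h2]
        apply (Subgroup.mem_normalizer_iff.1 ht _).2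
        have e : t * (t⁻¹ * y * t) * t⁻¹ = y := by group
        rw [e]; exact hy
    rw [hMz, mem_stabilizer_iff, hb] at hbM
    rw [hHm]
    exact (mul_inv_eq_iff_eq_mul.1 hbM).symm
  have hT : HasNPC p T := by
    apply thompson_npc hp2 (e := p) (Or.inr rfl) P
    · exact hNPC.le hNY
    · apply hNPC.le
      intro c hcz
      rw [hHm]
      exact Subgroup.mem_centralizer_iff.1 hcz z hzZ
  rcases hT.simple with h1 | h1
  · exact h1 hpd
  · apply hc
    haveI := isCyclic_of_prime_card h1
    exact ⟨⟨fun a b => (IsCyclic.commGroup (α := T)).mul_comm a b⟩⟩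

end CfsgL.DiagLem
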