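import Cfsg.Agent.L.PermG.ONS5
import Cfsg.Agent.L.PermG.DiagLem
import Cfsg.Agent.H2.PermB
/-!
Extremely primitive groups.
-/
set_option autoImplicit false
set_option maxHeartbeats 400000
namespace CfsgL.ONS
open Subgroup MulAction
open scoped Pointwise commutatorElement

universe u
variable {G : Type u} [Group G] [Finite G] {Ω : Type*} [Finite Ω] [MulAction G Ω]

omit [Finite G] in
theorem norm_iff {T : Subgroup G} {g : G} : g ∈ normalizer (T : Set G) ↔ MulAut.conj g • T = T := by
  rw [Subgroup.mem_normalizer_iff]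
  constructor
  · intro h
    ext x
    rw [mem_cj, h (g⁻¹ * x * g)]
    have e : g * (g⁻¹ * x * g) * g⁻¹ = x := by group
    rw [e]
  · intro h x
    constructor
    · intro hx
      rw [← h]; exact cj_mem g hx
    · intro hx
      rw [← h, mem_cj] at hx
      have e : g⁻¹ * (g * x * g⁻¹) * g = x := by group
      rwa [e] at hx

omit [Finite G] in
theorem norm_inv_iff {T : Subgroup G} {g : G} : MulAut.conj g⁻¹ • T = T ↔ MulAut.conj g • T = T := by
  rw [← norm_iff, ← norm_iff, Subgroup.inv_mem_iff]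

section
variable {α : Ω} {N T : Subgroup G} [hNn : N.Normal] (hU : IsCoatom (stabilizer G α)) (hcore : (stabilizer G α).normalCore = ⊥)
  (hN : N ≠ ⊥) (hnab : ¬ ∀ x ∈ N, ∀ y ∈ N, x * y = y * x) (h : Fac N T)
  (hep : ∀ β : Ω, β ≠ α → IsCoatom (stabilizer (stabilizer G α) β))

include hep in
omit [Finite G] [Finite Ω] in
theorem ep_proper {β : Ω} (hβ : β ≠ α) : ∃ u : G, u • α = α ∧ u • β ≠ β := by
  by_contra hcon
  push Not at hcon
  apply (hep β hβ).1
  rw [eq_top_iff]
  rintro ⟨u, hu⟩ _
  exact hcon u hu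

include hep in
omit [Finite G] [Finite Ω] in
theorem ep_use {β : Ω} (hβ : β ≠ α) (Y : Subgroup G) (h1 : ∀ u : G, u • α = α → u • β = β → u ∈ Y)
    (h2 : ∃ u : G, u • α = α ∧ u ∉ Y) : ∀ u : G, u • α = α → u ∈ Y → u • β = β := by
  have h3 : stabilizer (stabilizer G α) β ≤ Y.subgroupOf (stabilizer G α) := by
    intro u hu
    exact h1 u u.2 hu
  have h4 : Y.subgroupOf (stabilizer G α) ≠ ⊤ := by
    intro h5
    obtain ⟨u, hu, huY⟩ := h2
    apply huY
    have : (⟨u, hu⟩ : stabilizer G α) ∈ Y.subgroupOf (stabilizer G α) := by rw [h5]; trivial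
    exact this
  have h5 : stabilizer (stabilizer G α) β = Y.subgroupOf (stabilizer G α) := by
    by_contra hne
    exact h4 ((hep β hβ).2 _ (lt_of_le_of_ne h3 hne))
  intro u hu huY
  have : (⟨u, hu⟩ : stabilizer G α) ∈ stabilizer (stabilizer G α) β := by rw [h5]; exact huY
  exact this

include hU hcore hN in
omit [Finite Ω] in
/-- the points fixed by `N ∩ U` -/
theorem v_moves (hV : N ⊓ stabilizer G α ≠ ⊥) [IsPretransitive G Ω] {β : Ω} (hβ : β ≠ α) :
    ∃ v ∈ N, v • α = α ∧ v • β ≠ β := by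
  by_contra hcon
  push Not at hcon
  have htr := affine_trans α hU hcore hN
  obtain ⟨n, hn⟩ := MulAction.exists_smul_eq N α β
  have hn' : (n : G) • α = β := hn
  have h1 : (n : G)⁻¹ ∈ normalizer ((N ⊓ stabilizer G α : Subgroup G) : Set G) := by
    apply Subgroup.mem_normalizer_fintype
    rintro v ⟨hvN, hvU⟩
    have hvU' : v • α = α := hvU
    have h2 := hcon v hvN hvU'
    rw [inv_inv]
    refine ⟨N.mul_mem (N.mul_mem (N.inv_mem n.2) hvN) n.2, ?_⟩
    change ((n : G)⁻¹ * v * n) • α = α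
    rw [mul_smul, mul_smul, hn', h2, ← hn', inv_smul_smul]
  have h2 : stabilizer G α ≤ normalizer ((N ⊓ stabilizer G α : Subgroup G) : Set G) :=
    CfsgH1.le_normalizer_inf (CfsgH1.le_normalizer_of_normal _ _) Subgroup.le_normalizer
  have h3 : normalizer ((N ⊓ stabilizer G α : Subgroup G) : Set G) = ⊤ := by
    apply hU.2
    refine lt_of_le_of_ne h2 (fun h4 => ?_)
    rw [← h4] at h1
    have h5 : (n : G)⁻¹ • α = α := h1
    apply hβ
    rw [← hn']
    exact (inv_smul_eq_iff.1 h5).symm
  have h4 : (N ⊓ stabilizer G α).Normal := Subgroup.normalizer_eq_top_iff.1 h3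
  apply hV
  rw [eq_bot_iff, ← hcore]
  exact Subgroup.normal_le_normalCore.2 inf_le_right

include hU hcore hN h in
omit [Finite Ω] in
theorem exists_u_moves (hTN : T ≠ N) : ∃ u : G, u • α = α ∧ u ∉ normalizer (T : Set G) := by
  by_contra hcon
  push Not at hcon
  apply hTN
  rw [← h.span]
  apply le_antisymm
  · have := le_iSup (fun g : G => (MulAut.conj g • T : Subgroup G)) 1
    rwa [cj_one] at this
  · apply iSup_le
    intro g
    obtain ⟨u, hu, n, hn, rfl⟩ := exists_un hU hcore hN g
    rw [cj_mul]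
    have h1 : MulAut.conj n • T = T := by
      rw [← norm_iff]
      apply Subgroup.mem_normalizer_fintype
      intro t ht
      exact h.norm n hn t ht
    rw [h1, norm_iff.1 (hcon u hu)]

include h in
omit [Finite Ω] in
theorem N_le_norm : N ≤ normalizer (T : Set G) := by
  intro n hn
  apply Subgroup.mem_normalizer_fintype
  intro t ht
  exact h.norm n hn t ht

/-- the basic computation: `u` fixes `tα` and moves `T` -/
theorem st_mem {u t : G} (hu : u • α = α) (hut : u • (t • α) = t • α) : (u⁻¹ * t⁻¹ * u * t) • α = α := by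
  rw [mul_smul, mul_smul, mul_smul, hut, inv_smul_smul]
  exact inv_smul_eq_iff.2 hu.symm

include hU hcore hN h hep in
theorem claim_gen (hTN : T ≠ N) (hV : N ⊓ stabilizer G α ≠ ⊥) [IsPretransitive G Ω] {t : G} (ht : t ∈ T) (htU : t • α ≠ α)
    (hgood : ∀ g : G, MulAut.conj g • T ≠ T → ∀ s ∈ MulAut.conj g • T, (s * t) • α ≠ α) : False := by
  obtain ⟨v, hvN, hv, hvb⟩ := v_moves hU hcore hN hV htU
  apply hvb
  apply ep_use hep htU (normalizer (T : Set G)) _ (exists_u_moves hU hcore hN h hTN) v hv (N_le_norm h hvN)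
  intro u hu hut
  rw [norm_iff]
  by_contra hcon
  apply hgood u⁻¹ (fun h1 => hcon (norm_inv_iff.1 h1)) (u⁻¹ * t⁻¹ * u)
  · have := cj_mem u⁻¹ (T.inv_mem ht)
    rwa [inv_inv] at this
  · exact st_mem hu hut

include hU hcore hN hnab h hep in
theorem caseB [IsPretransitive G Ω] (hTU : T ⊓ stabilizer G α ≠ ⊥) : T = N := by
  by_contra hTN
  have hV : N ⊓ stabilizer G α ≠ ⊥ := by
    intro h1
    apply hTU
    rw [eq_bot_iff, ← h1]
    exact inf_le_inf h.le le_rfl
  obtain ⟨t, ht, hst⟩ := exists_strong hU hcore hN hnab h hTU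
  apply claim_gen hU hcore hN h hep hTN hV ht
  · intro h1
    apply hst 1 (Fac.C N T).one_mem 1
    rw [one_mul, mul_one, inv_one, mul_one]; exact h1
  · intro g hg s hs hcon
    have hsC := h.cj_le_C hg hs
    apply hst s hsC 1
    have := (Fac.mem_C.1 hsC).2 t ht
    rw [one_mul, inv_one, mul_one, this]
    exact hcon

include hnab h in
omit [Finite G] [Finite Ω] in
theorem nc3 {g0 : G} (hg0 : MulAut.conj g0 • T ≠ T) {t c : G} (ht : t ∈ T) (ht1 : t ≠ 1)
    (hc : c ∈ MulAut.conj g0 • T) (hc1 : c ≠ 1) (ho : orderOf t ≠ orderOf c) (g : G)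
    (he : g * (t * c) * g⁻¹ = t * c) : MulAut.conj g • T = T ∧ MulAut.conj g • (MulAut.conj g0 • T) = MulAut.conj g0 • T := by
  have ha : g * t * g⁻¹ ∈ MulAut.conj g • T := cj_mem g ht
  have hb : g * c * g⁻¹ ∈ MulAut.conj (g * g0) • T := by rw [cj_mul]; exact cj_mem g hc
  have ht' : t ∈ MulAut.conj (1 : G) • T := by rw [cj_one]; exact ht
  have hne : MulAut.conj g • T ≠ MulAut.conj (g * g0) • T := by
    intro h1
    rw [cj_mul] at h1
    apply hg0
    have := congrArg (fun X : Subgroup G => MulAut.conj g⁻¹ • X) h1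
    beta_reduce at this
    rw [← cj_mul, ← cj_mul, inv_mul_cancel, cj_one, cj_one] at this
    exact this.symm
  have hab : (g * t * g⁻¹) * (g * c * g⁻¹) = t * c := by rw [← he]; group
  have ha1 : g * t * g⁻¹ ≠ 1 := fun h1 => ht1 (by
    have e : g⁻¹ * (g * t * g⁻¹) * g = t := by group
    rw [← e, h1]; group)
  have hb1 : g * c * g⁻¹ ≠ 1 := fun h1 => hc1 (by
    have e : g⁻¹ * (g * c * g⁻¹) * g = c := by group
    rw [← e, h1]; group)
  have hcomm := ((h.comm2 g (g * g0)).resolve_left hne)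
  have hcC := (Fac.mem_C.1 (h.cj_le_C hg0 hc)).2
  have hab' : (g * c * g⁻¹) * (g * t * g⁻¹) = t * c := by rw [← hab, hcomm _ ha _ hb]
  rcases cl hnab h hne ha hb ht' hc hab ha1 with h1 | h1
  · rw [cj_one] at h1
    refine ⟨h1, ?_⟩
    rcases cl hnab h hne.symm hb ha ht' hc hab' hb1 with h2 | h2
    · rw [cj_one] at h2
      exact absurd (h1.trans h2.symm) hne
    · rw [← cj_mul]; exact h2
  · exfalso
    rcases cl hnab h hne.symm hb ha ht' hc hab' hb1 with h2 | h2
    · rw [cj_one] at h2
      rw [h2] at hb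
      rw [h1] at ha
      have h3 := fac_cancel hnab h hb ht hcC (fun z hz => ((Fac.mem_C.1 (h.cj_le_C hg0 ha)).2 z hz)) hab'
      apply ho
      rw [← h3.2, orderOf_conj']
    · exact hne (h1.trans h2.symm)

/-- if `N ∩ U = 1`, an element of `U` fixing `nα` commutes with `n` -/
theorem comm_of_fix (hV : N ⊓ stabilizer G α = ⊥) {u n : G} (hn : n ∈ N) (hu : u • α = α) (hun : u • (n • α) = n • α) :
    u * n * u⁻¹ = n := by
  have h1 : n⁻¹ * (u * n * u⁻¹) ∈ N ⊓ stabilizer G α := by
    refine ⟨N.mul_mem (N.inv_mem hn) (hNn.conj_mem n hn u), ?_⟩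
    change (n⁻¹ * (u * n * u⁻¹)) • α = α
    rw [mul_smul, mul_smul, mul_smul, (inv_smul_eq_iff.2 hu.symm : u⁻¹ • α = α), hun, inv_smul_smul]
  rw [hV, Subgroup.mem_bot] at h1
  exact (inv_mul_eq_one.1 h1).symm

theorem fix_of_comm {u n : G} (hu : u • α = α) (hun : u * n * u⁻¹ = n) : u • (n • α) = n • α := by
  have : u * n = n * u := mul_inv_eq_iff_eq_mul.1 hun
  rw [← mul_smul, this, mul_smul, hu]

include hU hcore hN hnab h hep in
/-- regular nonsimple minimal normal subgroup: impossible -/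
theorem caseA1a [IsPretransitive G Ω] (hV : N ⊓ stabilizer G α = ⊥) (hTN : T ≠ N) : False := by
  have hmv : ∀ {n : G}, n ∈ N → n ≠ 1 → n • α ≠ α := by
    intro n hn hn1 h1
    have : n ∈ N ⊓ stabilizer G α := ⟨hn, h1⟩
    rw [hV, Subgroup.mem_bot] at this
    exact hn1 this
  -- step 1 for any factor
  have step1 : ∀ T : Subgroup G, Fac N T → T ≠ N → ∀ u : G, u • α = α → u ∈ normalizer (T : Set G) →
      ∀ t ∈ T, u * t * u⁻¹ = t := by
    intro T h hTN u hu huT t ht
    by_cases ht1 : t = 1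
    · rw [ht1, mul_one, mul_inv_cancel]
    · apply comm_of_fix hV (h.le ht) hu
      apply ep_use hep (hmv (h.le ht) ht1) (normalizer (T : Set G)) _ (exists_u_moves hU hcore hN h hTN) u hu huT
      intro w hw hwt
      have h1 := comm_of_fix hV (h.le ht) hw hwt
      rw [norm_iff]
      by_contra hcon
      have h2 : t ∈ MulAut.conj w • T := by
        have := cj_mem w ht
        rwa [h1] at this
      exact ht1 (h.T_inf_C hnab ht (h.cj_le_C hcon h2))
  have hne : ∀ g : G, MulAut.conj g • T ≠ N := by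
    intro g hg
    apply hTN
    have := congrArg (fun X : Subgroup G => MulAut.conj g⁻¹ • X) hg
    beta_reduce at this
    rw [← cj_mul, inv_mul_cancel, cj_one] at this
    rw [this]
    apply le_antisymm
    · exact cj_normal_le le_rfl _
    · intro x hx
      rw [mem_cj]
      exact hNn.conj_mem' x hx g⁻¹
  have step2 : ∀ u : G, u • α = α → u ∈ normalizer (T : Set G) → ∀ g0 : G, MulAut.conj g0 • T ≠ T →
      u ∈ normalizer ((MulAut.conj g0 • T : Subgroup G) : Set G) := by
    intro u hu huT g0 hg0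
    obtain ⟨t1, t2, -, ht1, ht2, -, ht11, ht21, -, ho12, -, -⟩ := exists_orders hnab h
    -- transfer t2 to the other factor
    let t : G := t1
    let c : G := g0 * t2 * g0⁻¹
    have hc : c ∈ MulAut.conj g0 • T := cj_mem g0 ht2
    have hco : orderOf t ≠ orderOf c := by
      change orderOf t1 ≠ orderOf (g0 * t2 * g0⁻¹)
      rw [orderOf_conj']; exact ho12
    have hc1 : c ≠ 1 := by
      intro h1
      apply ht21
      have e : g0⁻¹ * c * g0 = t2 := by change g0⁻¹ * (g0 * t2 * g0⁻¹) * g0 = t2; group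
      rw [← e, h1]; group
    have hcN := (h.cj g0).le hc
    have htc : t * c ∈ N := N.mul_mem (h.le ht1) hcN
    have htc1 : t * c ≠ 1 := by
      intro h1
      apply hc1
      apply h.T_inf_C hnab _ (h.cj_le_C hg0 hc)
      have : c = t⁻¹ := eq_inv_of_mul_eq_one_right h1
      rw [this]; exact T.inv_mem ht1
    have h1 : u • ((t * c) • α) = (t * c) • α := by
      apply ep_use hep (hmv htc htc1) (normalizer (T : Set G)) _ (exists_u_moves hU hcore hN h hTN) u hu huT
      intro w hw hwt
      rw [norm_iff]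
      exact (nc3 hnab h hg0 ht1 ht11 hc hc1 hco w (comm_of_fix hV htc hw hwt)).1
    rw [norm_iff]
    exact (nc3 hnab h hg0 ht1 ht11 hc hc1 hco u (comm_of_fix hV htc hu h1)).2
  have step3 : ∀ u : G, u • α = α → u ∈ normalizer (T : Set G) → u = 1 := by
    intro u hu huT
    have h1 : N ≤ Subgroup.centralizer ({u} : Set G) := by
      rw [← h.span]
      apply iSup_le
      intro g x hx
      have hug : u ∈ normalizer ((MulAut.conj g • T : Subgroup G) : Set G) := by
        by_cases hg : MulAut.conj g • T = T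
        · rw [hg]; exact huT
        · exact step2 u hu huT g hg
      have h2 := step1 _ (h.cj g) (hne g) u hu hug x hx
      rw [Subgroup.mem_centralizer_singleton_iff]
      exact (mul_inv_eq_iff_eq_mul.1 h2).symm
    have h2 : u ∈ Subgroup.centralizer (N : Set G) ⊓ stabilizer G α := by
      refine ⟨?_, hu⟩
      apply Subgroup.mem_centralizer_iff.2
      intro n hn
      exact Subgroup.mem_centralizer_singleton_iff.1 (h1 hn)
    rw [CfsgH1.cf_centralizer_inf hU hcore hN, Subgroup.mem_bot] at h2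
    exact h2
  -- step 4
  obtain ⟨t, ht, -, -, -, -, ht1, -⟩ : ∃ t ∈ T, ∃ _ : True, True ∧ True ∧ True ∧ t ≠ 1 ∧ True := by
    obtain ⟨x, -, -, hx, -, -, hx1, -⟩ := exists_orders hnab h
    exact ⟨x, hx, trivial, trivial, trivial, trivial, hx1, trivial⟩
  have hbot : IsCoatom (⊥ : Subgroup (stabilizer G α)) := by
    have h1 := hep _ (hmv (h.le ht) ht1)
    have h2 : stabilizer (stabilizer G α) (t • α) = ⊥ := by
      rw [eq_bot_iff]
      rintro ⟨u, hu⟩ hut
      have h3 := comm_of_fix hV (h.le ht) hu hut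
      rw [Subgroup.mem_bot]
      apply Subtype.ext
      apply step3 u hu
      rw [norm_iff]
      by_contra hcon
      have h2 : t ∈ MulAut.conj u • T := by
        have := cj_mem u ht
        rwa [h3] at this
      exact ht1 (h.T_inf_C hnab ht (h.cj_le_C hcon h2))
    rwa [h2] at h1
  have hprime := CfsgH2.card_prime_of_bot_coatom hbot
  obtain ⟨⟨u, hu⟩, hu1⟩ : ∃ u : stabilizer G α, u ≠ 1 := by
    haveI : Nontrivial (stabilizer G α) := Finite.one_lt_card_iff_nontrivial.1 hprime.one_lt
    exact exists_ne 1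
  have hu1' : u ≠ 1 := fun h1 => hu1 (Subtype.ext h1)
  have huo : orderOf u = Nat.card (stabilizer G α) := by
    have h1 : orderOf (⟨u, hu⟩ : stabilizer G α) ∣ Nat.card (stabilizer G α) := orderOf_dvd_natCard _
    rcases (Nat.dvd_prime hprime).1 h1 with h2 | h2
    · exact absurd (orderOf_eq_one_iff.1 h2) hu1
    · rwa [Subgroup.orderOf_mk] at h2
  let φ : N →* N := (MulAut.conjNormal u : MulAut N).toMonoidHom
  have hφ : ∀ n : N, ((φ n : N) : G) = u * n * u⁻¹ := fun n => MulAut.conjNormal_apply u n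
  have hφk : ∀ (k : ℕ) (n : N), (((φ^[k]) n : N) : G) = u ^ k * n * (u ^ k)⁻¹ := by
    intro k
    induction k with
    | zero => intro n; simp
    | succ k ih =>
      intro n
      rw [Function.iterate_succ_apply', hφ, ih, pow_succ']
      group
  have hfpf : MonoidHom.FixedPointFree φ := by
    intro n hn
    by_contra hn1
    have hn1' : (n : G) ≠ 1 := fun h1 => hn1 (Subtype.ext h1)
    have h1 : u * n * u⁻¹ = n := by rw [← hφ, hn]
    have h2 := fix_of_comm hu h1
    have h3 := hep _ (hmv n.2 hn1')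
    have h4 : (⟨u, hu⟩ : stabilizer G α) ∈ stabilizer (stabilizer G α) ((n : G) • α) := h2
    apply h3.1
    by_contra h5
    have h6 : stabilizer (stabilizer G α) ((n : G) • α) = ⊥ := by
      by_contra h7
      exact h5 (hbot.2 _ (bot_lt_iff_ne_bot.2 h7))
    rw [h6, Subgroup.mem_bot] at h4
    exact hu1 h4
  have hiter : φ^[orderOf u] = _root_.id := by
    funext n
    apply Subtype.ext
    rw [hφk, pow_orderOf_eq_one]; simp
  have hprod := hfpf.prod_pow_eq_one hiter ⟨t, h.le ht⟩
  obtain ⟨r, hr⟩ := Nat.exists_eq_succ_of_ne_zero (orderOf_pos u).ne'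
  rw [hr, Nat.succ_eq_add_one, List.range_succ_eq_map, List.map_cons, List.prod_cons, List.map_map] at hprod
  have hrest : ((((List.range r).map ((fun k => (φ^[k]) ⟨t, h.le ht⟩) ∘ Nat.succ)).prod : N) : G) ∈ Fac.C N T := by
    have h1 : (((List.range r).map ((fun k => (φ^[k]) ⟨t, h.le ht⟩) ∘ Nat.succ)).prod : N) ∈ (Fac.C N T).subgroupOf N := by
      apply Subgroup.list_prod_mem
      intro x hx
      rw [List.mem_map] at hx
      obtain ⟨k, hk, rfl⟩ := hx
      rw [List.mem_range] at hk
      rw [Subgroup.mem_subgroupOf, Function.comp_apply, hφk]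
      have h2 : MulAut.conj (u ^ k.succ) • T ≠ T := by
        intro h3
        rw [← norm_iff] at h3
        have h4 := step3 _ (show (u ^ k.succ) • α = α from Subgroup.pow_mem (stabilizer G α) hu _) h3
        have h5 := orderOf_dvd_of_pow_eq_one h4
        have := Nat.le_of_dvd (Nat.succ_pos k) h5
        omega
      exact h.cj_le_C h2 (cj_mem _ ht)
    exact h1
  apply ht1
  apply h.T_inf_C hnab ht
  have h3 : t * ((((List.range r).map ((fun k => (φ^[k]) ⟨t, h.le ht⟩) ∘ Nat.succ)).prod : N) : G) = 1 := by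
    have := congrArg (fun x : N => (x : G)) hprod
    simpa using this
  rw [eq_inv_of_mul_eq_one_left h3]
  exact (Fac.C N T).inv_mem hrest

end

end CfsgL.ONS
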