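import Cfsg.Agent.L.PermG.ONS6
/-!
Extremely primitive groups: diagonal type.
-/
set_option autoImplicit false
set_option maxHeartbeats 400000
namespace CfsgL.ONS
open Subgroup MulAction
open scoped Pointwise commutatorElement

universe u
variable {G : Type u} [Group G] [Finite G] {Ω : Type*} [Finite Ω] [MulAction G Ω]

theorem diag_app {T : Subgroup G} (hsim : IsSimpleGroup T) (hnc : ¬ IsMulCommutative T) (α : Ω)
    (hTU : T ⊓ stabilizer G α = ⊥) (htr : ∀ ω : Ω, ∃ t ∈ T, t • α = ω)
    (hcomm : ∀ g : G, MulAut.conj g • T = T ∨ ∀ x ∈ T, ∀ y ∈ MulAut.conj g • T, x * y = y * x)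
    (hinn : ∀ t ∈ T, ∃ v : G, v • α = α ∧ ∀ x ∈ T, v * x * v⁻¹ = t * x * t⁻¹)
    (hep : ∀ β : Ω, β ≠ α → IsCoatom (stabilizer (stabilizer G α) β)) : False := by
  have huniq : ∀ x y : T, (x : G) • α = (y : G) • α → x = y := by
    intro x y hxy
    have h1 : (y : G)⁻¹ * x ∈ T ⊓ stabilizer G α := by
      refine ⟨T.mul_mem (T.inv_mem y.2) x.2, ?_⟩
      change ((y : G)⁻¹ * x) • α = α
      rw [mul_smul, hxy, inv_smul_smul]
    rw [hTU, Subgroup.mem_bot] at h1
    exact Subtype.ext (inv_mul_eq_one.1 h1).symm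
  let e : T ≃ Ω := Equiv.ofBijective (fun t => (t : G) • α) ⟨fun x y hxy => huniq x y hxy, fun ω => by
    obtain ⟨t, ht, h⟩ := htr ω
    exact ⟨⟨t, ht⟩, h⟩⟩
  have he : ∀ t : T, e t = (t : G) • α := fun t => rfl
  letI act : MulAction (stabilizer G α) T :=
    { smul := fun b x => e.symm (b • e x)
      one_smul := fun x => by
        change e.symm ((1 : stabilizer G α) • e x) = x
        rw [one_smul, e.symm_apply_apply]
      mul_smul := fun a b x => by
        change e.symm ((a * b) • e x) = e.symm (a • e (e.symm (b • e x)))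
        rw [e.apply_symm_apply, mul_smul] }
  have key : ∀ (b : stabilizer G α) (x : T), ((b • x : T) : G) • α = (b : G) • ((x : G) • α) := by
    intro b x
    rw [← he]
    change e (e.symm (b • e x)) = _
    rw [e.apply_symm_apply]; rfl
  have hbα : ∀ b : stabilizer G α, (b : G) • α = α := fun b => b.2
  have hbα' : ∀ b : stabilizer G α, (b : G)⁻¹ • α = α := fun b => inv_smul_eq_iff.2 b.2.symm
  have hD : CfsgL.DiagLem.Dg (stabilizer G α) T := by
    refine ⟨fun b => ?_, fun t => ?_, fun x hx => ?_⟩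
    · rcases hcomm b with h1 | h1
      · left
        have h2 : ∀ x : T, ((b • x : T) : G) = b * x * (b : G)⁻¹ := by
          intro x
          have hm : (b : G) * x * (b : G)⁻¹ ∈ T := by
            have := cj_mem (b : G) x.2
            rwa [h1] at this
          have := huniq (b • x) ⟨_, hm⟩ (by
            rw [key]
            change _ = ((b : G) * x * (b : G)⁻¹) • α
            rw [mul_smul, mul_smul, hbα'])
          exact congrArg Subtype.val this
        intro x y
        apply Subtype.ext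
        rw [Subgroup.coe_mul, h2, h2, h2, Subgroup.coe_mul]; group
      · right
        intro x y
        apply huniq
        rw [key, Subgroup.coe_mul, Subgroup.coe_mul, mul_smul, mul_smul, key b x]
        have h2 : (b : G) • ((x : G) • α) = ((b : G) * x * (b : G)⁻¹) • α := by
          rw [mul_smul, mul_smul, hbα']
        have h3 := h1 _ (b • y : T).2 _ (cj_mem (b : G) x.2)
        rw [h2, ← mul_smul ((b • y : T) : G), h3, mul_smul, key b y, ← mul_smul, ← mul_smul, ← mul_smul, ← mul_smul]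
        congr 1
        group
    · obtain ⟨v, hv, hvx⟩ := hinn t t.2
      refine ⟨⟨v, hv⟩, fun x => ?_⟩
      apply huniq
      rw [key]
      change v • ((x : G) • α) = ((t : G) * x * (t : G)⁻¹) • α
      rw [← hvx x x.2, mul_smul, mul_smul, inv_smul_eq_iff.2 hv.symm]
    · have h1 : stabilizer (stabilizer G α) x = stabilizer (stabilizer G α) ((x : G) • α) := by
        ext b
        rw [mem_stabilizer_iff, mem_stabilizer_iff]
        constructor
        · intro h2
          have := key b x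
          rw [h2] at this
          exact this.symm
        · intro h2
          apply huniq
          rw [key]; exact h2
      rw [h1]
      apply hep
      intro h2
      have h3 : (x : G) ∈ T ⊓ stabilizer G α := ⟨x.2, h2⟩
      rw [hTU, Subgroup.mem_bot] at h3
      exact hx (Subtype.ext h3)
  haveI := hsim
  exact CfsgL.DiagLem.dg_false hnc hD

section
variable {α : Ω} {N T : Subgroup G} [hNn : N.Normal] (hU : IsCoatom (stabilizer G α)) (hcore : (stabilizer G α).normalCore = ⊥)
  (hN : N ≠ ⊥) (hnab : ¬ ∀ x ∈ N, ∀ y ∈ N, x * y = y * x) (h : Fac N T)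
  (hep : ∀ β : Ω, β ≠ α → IsCoatom (stabilizer (stabilizer G α) β))

include h in
theorem proj_all (hpr : ∀ t ∈ T, ∃ v ∈ N, v • α = α ∧ ∃ c ∈ Fac.C N T, t = v * c) {g : G} (hg : MulAut.conj g • T ≠ T)
    {s0 t0 : G} (hs0 : s0 ∈ MulAut.conj g • T) (ht0 : t0 ∈ T) (ht01 : t0 ≠ 1) (h0 : (s0 * t0) • α = α) :
    ∀ t ∈ T, ∃ s ∈ MulAut.conj g • T, (s * t) • α = α := by
  have hcm := (h.comm g).resolve_left hg
  let X : Subgroup G :=
    { carrier := {t | t ∈ T ∧ ∃ s ∈ MulAut.conj g • T, (s * t) • α = α}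
      one_mem' := ⟨T.one_mem, 1, Subgroup.one_mem _, by rw [mul_one, one_smul]⟩
      mul_mem' := by
        rintro t t' ⟨ht, s, hs, he⟩ ⟨ht', s', hs', he'⟩
        refine ⟨T.mul_mem ht ht', s * s', Subgroup.mul_mem _ hs hs', ?_⟩
        have h1 := hcm t ht s' hs'
        have e : s * s' * (t * t') = (s * t) * (s' * t') := by
          calc s * s' * (t * t') = s * (s' * t) * t' := by group
            _ = _ := by rw [← h1]; group
        rw [e, mul_smul, he', he]
      inv_mem' := by
        rintro t ⟨ht, s, hs, he⟩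
        refine ⟨T.inv_mem ht, s⁻¹, Subgroup.inv_mem _ hs, ?_⟩
        have h1 := hcm t ht s hs
        rw [← mul_inv_rev, h1]
        exact inv_smul_eq_iff.2 he.symm }
  rcases h.min X (fun t ht => ht.1) (by
    rintro n hn t ⟨ht, s, hs, he⟩
    obtain ⟨t1, ht1, c1, hc1, rfl⟩ := h.exists_mul hn
    obtain ⟨v, hvN, hv, c, hc, rfl⟩ := hpr t1 ht1
    have hc' := (Fac.mem_C.1 ((Fac.C N T).mul_mem hc hc1)).2 t ht
    have e1 : v * c * c1 * t * (v * c * c1)⁻¹ = v * t * v⁻¹ := by
      have : v * c * c1 * t * (v * c * c1)⁻¹ = v * ((c * c1) * t) * (c * c1)⁻¹ * v⁻¹ := by group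
      rw [this, ← hc']; group
    rw [e1]
    refine ⟨h.norm v hvN t ht, v * s * v⁻¹, (h.cj g).norm v hvN s hs, ?_⟩
    have e2 : v * s * v⁻¹ * (v * t * v⁻¹) = v * (s * t) * v⁻¹ := by group
    rw [e2, mul_smul, mul_smul, inv_smul_eq_iff.2 hv.symm, he, hv]) with h1 | h1
  · exfalso
    have : t0 ∈ X := ⟨ht0, s0, hs0, h0⟩
    rw [h1, Subgroup.mem_bot] at this
    exact ht01 this
  · intro t ht
    rw [← h1] at ht
    exact ht.2

include hnab h in
theorem pair_uniq (hTU : T ⊓ stabilizer G α = ⊥) (hpr : ∀ t ∈ T, ∃ v ∈ N, v • α = α ∧ ∃ c ∈ Fac.C N T, t = v * c)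
    {g g' : G} (hg : MulAut.conj g • T ≠ T) (hg' : MulAut.conj g' • T ≠ T)
    {s0 t0 s0' t0' : G} (hs0 : s0 ∈ MulAut.conj g • T) (ht0 : t0 ∈ T) (ht01 : t0 ≠ 1) (h0 : (s0 * t0) • α = α)
    (hs0' : s0' ∈ MulAut.conj g' • T) (ht0' : t0' ∈ T) (ht01' : t0' ≠ 1) (h0' : (s0' * t0') • α = α) :
    MulAut.conj g • T = MulAut.conj g' • T := by
  by_contra hne
  have hcm := (h.comm g).resolve_left hg
  have hcm' := (h.comm g').resolve_left hg'
  have hcc := (h.comm2 g g').resolve_left hne
  apply h.not_comm hnab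
  refine ⟨⟨fun a b => ?_⟩⟩
  obtain ⟨s, hs, hsa⟩ := proj_all h hpr hg hs0 ht0 ht01 h0 a a.2
  obtain ⟨s', hs', hsb⟩ := proj_all h hpr hg' hs0' ht0' ht01' h0' b b.2
  have e1 := hcm b b.2 s hs
  have e2 := hcm' a a.2 s' hs'
  have e3 := hcc s hs s' hs'
  have h1 : (s * a) * (s' * b) = (s * s') * (a * b) := by
    calc (s * a) * (s' * b) = s * (a * s') * b := by group
      _ = _ := by rw [e2]; group
  have h2 : (s' * b) * (s * a) = (s * s') * (b * a) := by
    calc (s' * b) * (s * a) = s' * (b * s) * a := by group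
      _ = (s' * s) * (b * a) := by rw [e1]; group
      _ = _ := by rw [← e3]
  have h3 : ((b : G) * a)⁻¹ * (a * b) ∈ T ⊓ stabilizer G α := by
    refine ⟨T.mul_mem (T.inv_mem (T.mul_mem b.2 a.2)) (T.mul_mem a.2 b.2), ?_⟩
    change (((b : G) * a)⁻¹ * (a * b)) • α = α
    have e4 : ((b : G) * a)⁻¹ * (a * b) = ((s' * b) * (s * a))⁻¹ * ((s * a) * (s' * b)) := by
      rw [h1, h2]; group
    have e5 : ((s * a) * (s' * b)) • α = α := by rw [mul_smul (s * (a : G)), hsb, hsa]
    have e6 : ((s' * b) * (s * a)) • α = α := by rw [mul_smul (s' * (b : G)), hsa, hsb]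
    rw [e4, mul_smul, e5, inv_smul_eq_iff, e6]
  rw [hTU, Subgroup.mem_bot] at h3
  exact Subtype.ext (inv_mul_eq_one.1 h3).symm

include hU hcore hN hnab h hep in
theorem caseA2 [IsPretransitive G Ω] (hTU : T ⊓ stabilizer G α = ⊥) (hV : N ⊓ stabilizer G α ≠ ⊥) : False := by
  have hTN : T ≠ N := by
    rintro rfl
    exact hV hTU
  have hTmv : ∀ {t : G}, t ∈ T → t ≠ 1 → t • α ≠ α := by
    intro t ht ht1 h1
    have : t ∈ T ⊓ stabilizer G α := ⟨ht, h1⟩
    rw [hTU, Subgroup.mem_bot] at this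
    exact ht1 this
  by_cases good : ∃ t ∈ T, ∀ v ∈ N, v • α = α → ∀ c ∈ Fac.C N T, t ≠ v * c
  · obtain ⟨t, ht, hgood⟩ := good
    apply claim_gen hU hcore hN h hep hTN hV ht
    · intro h1
      exact hgood t (h.le ht) h1 1 (Fac.C N T).one_mem (by rw [mul_one])
    · intro g hg s hs hcon
      have hsC := h.cj_le_C hg hs
      have hc := (Fac.mem_C.1 hsC).2 t ht
      apply hgood (s * t) (N.mul_mem ((h.cj g).le hs) (h.le ht)) hcon s⁻¹ ((Fac.C N T).inv_mem hsC)
      rw [← hc, mul_inv_cancel_right]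
  push Not at good
  have hpr : ∀ t ∈ T, ∃ v ∈ N, v • α = α ∧ ∃ c ∈ Fac.C N T, t = v * c := good
  by_cases hex : ∃ g : G, MulAut.conj g • T ≠ T ∧ ∃ s ∈ MulAut.conj g • T, ∃ t ∈ T, t ≠ 1 ∧ (s * t) • α = α
  swap
  · push Not at hex
    obtain ⟨t, ht1⟩ := Subgroup.ne_bot_iff_exists_ne_one.1 h.ne
    have ht1' : (t : G) ≠ 1 := fun h1 => ht1 (Subtype.ext h1)
    exact claim_gen hU hcore hN h hep hTN hV t.2 (hTmv t.2 ht1') (fun g hg s hs => hex g hg s hs t t.2 ht1')
  obtain ⟨g0, hg0, s0, hs0, t0, ht0, ht01, h0⟩ := hex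
  have hs01 : s0 ≠ 1 := by
    rintro rfl
    rw [one_mul] at h0
    exact hTmv ht0 ht01 h0
  have huq : ∀ {g : G}, MulAut.conj g • T ≠ T → ∀ {s t : G}, s ∈ MulAut.conj g • T → t ∈ T → t ≠ 1 → (s * t) • α = α →
      MulAut.conj g • T = MulAut.conj g0 • T := by
    intro g hg s t hs ht ht1 he
    exact pair_uniq hnab h hTU hpr hg hg0 hs ht ht1 he hs0 ht0 ht01 h0
  let T' : Subgroup G := MulAut.conj g0 • T
  have hT' : T' = MulAut.conj g0 • T := rfl
  have hcm := (h.comm g0).resolve_left hg0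
  have cj_inj : ∀ {g : G} {A B : Subgroup G}, MulAut.conj g • A = MulAut.conj g • B → A = B := by
    intro g A B hAB
    have := congrArg (fun X : Subgroup G => MulAut.conj g⁻¹ • X) hAB
    beta_reduce at this
    rwa [← cj_mul, ← cj_mul, inv_mul_cancel, cj_one, cj_one] at this
  have cj_inv : ∀ {g : G} {A B : Subgroup G}, MulAut.conj g⁻¹ • A = B → MulAut.conj g • B = A := by
    intro g A B hAB
    rw [← hAB, ← cj_mul, mul_inv_cancel, cj_one]
  let Y : Subgroup G :=
    { carrier := {g | (MulAut.conj g • T = T ∧ MulAut.conj g • T' = T') ∨ (MulAut.conj g • T = T' ∧ MulAut.conj g • T' = T)}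
      one_mem' := Or.inl ⟨cj_one T, cj_one T'⟩
      mul_mem' := by
        rintro a b (⟨ha1, ha2⟩ | ⟨ha1, ha2⟩) (⟨hb1, hb2⟩ | ⟨hb1, hb2⟩)
        · left; constructor
          · rw [cj_mul, hb1, ha1]
          · rw [cj_mul, hb2, ha2]
        · right; constructor
          · rw [cj_mul, hb1, ha2]
          · rw [cj_mul, hb2, ha1]
        · right; constructor
          · rw [cj_mul, hb1, ha1]
          · rw [cj_mul, hb2, ha2]
        · left; constructor
          · rw [cj_mul, hb1, ha2]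
          · rw [cj_mul, hb2, ha1]
      inv_mem' := by
        rintro a (⟨ha1, ha2⟩ | ⟨ha1, ha2⟩)
        · left; constructor
          · apply cj_inj (g := a); rw [← cj_mul, mul_inv_cancel, cj_one, ha1]
          · apply cj_inj (g := a); rw [← cj_mul, mul_inv_cancel, cj_one, ha2]
        · right; constructor
          · apply cj_inj (g := a); rw [← cj_mul, mul_inv_cancel, cj_one, ha2]
          · apply cj_inj (g := a); rw [← cj_mul, mul_inv_cancel, cj_one, ha1] }
  have hNY : N ≤ Y := fun n hn => Or.inl ⟨norm_iff.1 (N_le_norm h hn), norm_iff.1 (N_le_norm (h.cj g0) hn)⟩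
  -- stabilizers of tα lie in Y
  have hXY : ∀ t ∈ T, t ≠ 1 → ∀ u : G, u • α = α → u • (t • α) = t • α → u ∈ Y := by
    intro t ht ht1 u hu hut
    have huα' : u⁻¹ • α = α := inv_smul_eq_iff.2 hu.symm
    by_cases hT1 : MulAut.conj u⁻¹ • T = T
    · -- u normalizes T
      left
      refine ⟨cj_inv hT1, ?_⟩
      apply cj_inv
      have h1 : MulAut.conj (u⁻¹ * g0) • T ≠ T := by
        intro h2
        rw [cj_mul] at h2
        apply hg0
        apply cj_inj (g := u⁻¹)
        rw [h2, hT1]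
      rw [hT', ← cj_mul]
      apply huq h1 (s := u⁻¹ * s0 * u) (t := u⁻¹ * t0 * u)
      · have := cj_mem u⁻¹ hs0
        rw [inv_inv] at this
        rw [cj_mul]; exact this
      · have := cj_mem u⁻¹ ht0
        rw [inv_inv, hT1] at this
        exact this
      · intro h2
        apply ht01
        have e : u * (u⁻¹ * t0 * u) * u⁻¹ = t0 := by group
        rw [← e, h2]; group
      · have e : u⁻¹ * s0 * u * (u⁻¹ * t0 * u) = u⁻¹ * (s0 * t0) * u := by group
        rw [e, mul_smul, mul_smul, hu, h0, huα']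
    · right
      have h2 : MulAut.conj u⁻¹ • T = T' := by
        apply huq hT1 (s := u⁻¹ * t⁻¹ * u) (t := t)
        · have := cj_mem u⁻¹ (T.inv_mem ht)
          rwa [inv_inv] at this
        · exact ht
        · exact ht1
        · exact st_mem hu hut
      refine ⟨?_, cj_inv h2⟩
      have hT2 : MulAut.conj u • T ≠ T := fun h3 => hT1 (norm_inv_iff.2 h3)
      apply huq hT2 (s := u * t0 * u⁻¹) (t := u * s0 * u⁻¹)
      · exact cj_mem u ht0
      · have := cj_mem u hs0
        rw [← hT', cj_inv h2] at this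
        exact this
      · intro h3
        apply hs01
        have e : u⁻¹ * (u * s0 * u⁻¹) * u = s0 := by group
        rw [← e, h3]; group
      · have e : u * t0 * u⁻¹ * (u * s0 * u⁻¹) = u * (s0 * t0) * u⁻¹ := by
          rw [← hcm t0 ht0 s0 hs0]; group
        rw [e, mul_smul, mul_smul, huα', h0, hu]
  have hUY : ∀ u : G, u • α = α → u ∈ Y := by
    by_contra hcon
    push Not at hcon
    obtain ⟨t, ht1⟩ := Subgroup.ne_bot_iff_exists_ne_one.1 h.ne
    have ht1' : (t : G) ≠ 1 := fun h1 => ht1 (Subtype.ext h1)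
    have htm := hTmv t.2 ht1'
    obtain ⟨v, hvN, hv, hvb⟩ := v_moves hU hcore hN hV htm
    exact hvb (ep_use hep htm Y (hXY t t.2 ht1') hcon v hv (hNY hvN))
  have hYtop : ∀ g : G, g ∈ Y := by
    intro g
    obtain ⟨u, hu, n, hn, rfl⟩ := exists_un hU hcore hN g
    exact Y.mul_mem (hUY u hu) (hNY hn)
  have hNle : N ≤ T ⊔ T' := by
    rw [← h.span]
    apply iSup_le
    intro g
    rcases hYtop g with ⟨h1, -⟩ | ⟨h1, -⟩
    · rw [h1]; exact le_sup_left
    · rw [h1]; exact le_sup_right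
  -- elements of N are products
  have hNdec : ∀ n ∈ N, ∃ t ∈ T, ∃ s ∈ T', n = t * s := by
    intro n hn
    let S : Subgroup G :=
      { carrier := {n | ∃ t ∈ T, ∃ c ∈ T', n = t * c}
        one_mem' := ⟨1, T.one_mem, 1, T'.one_mem, by rw [mul_one]⟩
        mul_mem' := by
          rintro _ _ ⟨t, ht, c, hc, rfl⟩ ⟨t', ht', c', hc', rfl⟩
          refine ⟨t * t', T.mul_mem ht ht', c * c', T'.mul_mem hc hc', ?_⟩
          have := hcm t' ht' c hc
          rw [mul_assoc, mul_assoc, ← mul_assoc c, ← this]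
          simp only [mul_assoc]
        inv_mem' := by
          rintro _ ⟨t, ht, c, hc, rfl⟩
          refine ⟨t⁻¹, T.inv_mem ht, c⁻¹, T'.inv_mem hc, ?_⟩
          have := hcm t ht c hc
          rw [this, mul_inv_rev] }
    have h1 : T ⊔ T' ≤ S := sup_le (fun t ht => ⟨t, ht, 1, T'.one_mem, by rw [mul_one]⟩)
      (fun c hc => ⟨1, T.one_mem, c, hc, by rw [one_mul]⟩)
    exact h1 (hNle hn)
  have hproj := proj_all h hpr hg0 hs0 ht0 ht01 h0
  choose! f hf1 hf2 using hproj
  have hfinj : Function.Injective (fun t : T => (⟨f t, hf1 t t.2⟩ : T')) := by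
    intro a b hab
    have hab' : f a = f b := congrArg Subtype.val hab
    have h1 := hf2 a a.2
    have h2 := hf2 b b.2
    rw [hab'] at h1
    have h3 : (b : G)⁻¹ * a ∈ T ⊓ stabilizer G α := by
      refine ⟨T.mul_mem (T.inv_mem b.2) a.2, ?_⟩
      change ((b : G)⁻¹ * a) • α = α
      have e : (b : G)⁻¹ * a = (f b * b)⁻¹ * (f b * a) := by group
      rw [e, mul_smul, h1]
      exact inv_smul_eq_iff.2 h2.symm
    rw [hTU, Subgroup.mem_bot] at h3
    exact Subtype.ext (inv_mul_eq_one.1 h3).symm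
  have hfsurj : Function.Surjective (fun t : T => (⟨f t, hf1 t t.2⟩ : T')) := by
    have hcard : Nat.card T = Nat.card T' := Nat.card_congr (Subgroup.equivSMul (MulAut.conj g0) T).toEquiv
    exact (Nat.bijective_iff_injective_and_card _ |>.2 ⟨hfinj, hcard⟩).2
  have htrN := affine_trans α hU hcore hN
  apply diag_app (h.simple hnab) (h.not_comm hnab) α hTU _ h.comm _ hep
  · intro ω
    obtain ⟨n, hn⟩ := MulAction.exists_smul_eq N α ω
    have hn' : (n : G) • α = ω := hn
    obtain ⟨t, ht, s, hs, he⟩ := hNdec n n.2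
    obtain ⟨t2, ht2⟩ := hfsurj ⟨s, hs⟩
    have ht2' : f t2 = s := congrArg Subtype.val ht2
    have h1 := hf2 t2 t2.2
    rw [ht2'] at h1
    refine ⟨t * (t2 : G)⁻¹, T.mul_mem ht (T.inv_mem t2.2), ?_⟩
    rw [← hn', he]
    have e : t * s = t * (t2 : G)⁻¹ * (s * t2) := by
      rw [← hcm t2 t2.2 s hs]; group
    rw [e, mul_smul _ (s * (t2 : G)), h1]
  · intro t ht
    refine ⟨f t * t, hf2 t ht, fun x hx => ?_⟩
    have h1 := hcm _ (T.mul_mem (T.mul_mem ht hx) (T.inv_mem ht)) (f t) (hf1 t ht)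
    have e : f t * t * x * (f t * t)⁻¹ = f t * (t * x * t⁻¹) * (f t)⁻¹ := by group
    rw [e, ← h1, mul_inv_cancel_right]

include hU hcore hN hnab h hep in
theorem extremely [IsPretransitive G Ω] : T = N ∧ Subgroup.centralizer (N : Set G) = ⊥ := by
  by_cases hTU : T ⊓ stabilizer G α = ⊥
  · by_cases hV : N ⊓ stabilizer G α = ⊥
    · by_cases hTN : T = N
      · refine ⟨hTN, ?_⟩
        by_contra hC
        have htrN := affine_trans α hU hcore hN
        have htrC := affine_trans α hU hcore hC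
        apply diag_app (h.simple hnab) (h.not_comm hnab) α hTU _ h.comm _ hep
        · intro ω
          obtain ⟨n, hn⟩ := MulAction.exists_smul_eq N α ω
          exact ⟨n, by rw [hTN]; exact n.2, hn⟩
        · intro t ht
          obtain ⟨m, hm⟩ := MulAction.exists_smul_eq (Subgroup.centralizer (N : Set G)) α (t • α)
          have hm' : (m : G) • α = t • α := hm
          refine ⟨(m : G)⁻¹ * t, ?_, fun x hx => ?_⟩
          · rw [mul_smul, ← hm', inv_smul_smul]
          · have h1 : t * x * t⁻¹ ∈ N := h.le (T.mul_mem (T.mul_mem ht hx) (T.inv_mem ht))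
            have h2 := Subgroup.mem_centralizer_iff.1 m.2 _ h1
            have e : (m : G)⁻¹ * t * x * ((m : G)⁻¹ * t)⁻¹ = (m : G)⁻¹ * ((t * x * t⁻¹) * m) := by group
            rw [e, h2, inv_mul_cancel_left]
      · exact (caseA1a hU hcore hN hnab h hep hV hTN).elim
    · exact (caseA2 hU hcore hN hnab h hep hTU hV).elim
  · exact ⟨caseB hU hcore hN hnab h hep hTU, cent_bot hU hcore hN h hTU⟩

end

end CfsgL.ONS
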